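import Cfsg.Agent.H33.G2Two.EvenType

/-!
Bounds for 2-groups acting on an elementary abelian group of order eight.
-/

set_option autoImplicit false

namespace Cfsg.Agent.H33.G2Two.Cfg

open Mdl

variable {G : Type*} [Group G] [Finite G] {n : ℕ} {S : Sylow 2 G} {j : Mdl (2 ^ n) →* G}

/-- The bound in the model, at the exchange. -/
theorem bound_sg (c : Cfg S j) (hs : ¬ R j sg (zc n)) (hsi : ¬ R j sgi (zc n))
    (P : Subgroup (Mdl (2 ^ n))) (τ : Mdl (2 ^ n)) (hτ : R j τ (zc n)) (hτz : τ ≠ zc n)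
    (hτs : Commute τ sg) (orbY : ∀ m ∈ P, Commute (m * sg * m⁻¹) sg)
    (orbW : ∀ m ∈ P, Commute m sg → Commute (m * τ * m⁻¹) τ) :
    Nat.card P ≤ 32 ∧
      Nat.card ↥(P ⊓ Subgroup.centralizer ({sg} : Set _) ⊓ Subgroup.centralizer ({τ} : Set _)) ≤ 8 := by
  haveI : NeZero (2 ^ n) := ⟨by positivity⟩
  have hn1 : 1 ≤ n := by have := c.hn; omega
  obtain ⟨h1, h2⟩ := c.inv_of_R hτ c.zc_inv.1 c.zc_inv.2
  obtain ⟨d, rfl⟩ : ∃ d, τ = io d d := by
    have hb := (commute_sg_iff _).1 hτs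
    rcases involution_cases hn1 h1 h2 with h | h | h | ⟨d, d', rfl⟩ | ⟨d, h⟩ | ⟨d, h⟩
    · exact absurd h hτz
    · rw [h] at hb; exact absurd hb.symm (half_ne_zero hn1)
    · rw [h] at hb; exact absurd hb (half_ne_zero hn1)
    · exact ⟨d, by rw [show d' = d from hb]⟩
    · exact absurd ((R.of_isConj (Mdl.isConj_sg d)).trans (h ▸ hτ)) hs
    · exact absurd ((R.of_isConj (Mdl.isConj_sgi d)).trans (h ▸ hτ)) hsi
  have h8 : Nat.card ↥(P ⊓ Subgroup.centralizer ({sg} : Set _) ⊓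
      Subgroup.centralizer ({io d d} : Set _)) ≤ 8 := by
    rw [← SetLike.coe_sort_coe, Nat.card_coe_set_eq]
    refine (Set.ncard_le_ncard ?_ (Set.toFinite _)).trans (Mdl.centralizer_sg_io_le hn1 d)
    intro m hm
    exact ⟨Subgroup.mem_centralizer_singleton_iff.1 hm.1.2, Subgroup.mem_centralizer_singleton_iff.1 hm.2⟩
  refine ⟨?_, h8⟩
  have o1 : ((fun k => k * sg * k⁻¹) '' (P : Set (Mdl (2 ^ n)))).ncard ≤ 2 := by
    refine (Set.ncard_le_ncard (t := {sg, ⟨half n, half n, true, false⟩}) ?_ (Set.toFinite _)).trans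
      ((Set.ncard_insert_le _ _).trans (by simp))
    rintro _ ⟨m, hm, rfl⟩
    have hb := (commute_sg_iff _).1 (orbY m hm)
    have hk := conj_k m (sg : Mdl (2 ^ n))
    have hl := conj_l m (sg : Mdl (2 ^ n))
    have hsq : (m * sg * m⁻¹) * (m * sg * m⁻¹) = (1 : Mdl (2 ^ n)) := by
      rw [show (m * sg * m⁻¹) * (m * sg * m⁻¹) = m * (sg * sg) * m⁻¹ by group, c.sg_inv.1, mul_one,
        mul_inv_cancel]
    show m * sg * m⁻¹ ∈ _
    generalize m * sg * m⁻¹ = y at hb hk hl hsq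
    obtain ⟨u, v, k, l⟩ := y
    simp only at hb hk hl
    subst hb hk hl
    simp [Mdl.mul_def, Mdl.one_def] at hsq
    rcases eq_zero_or_half hn1 (show 2 * v = 0 by linear_combination hsq) with rfl | rfl <;> simp
  have o2 : ((fun k => k * io d d * k⁻¹) ''
      ((P ⊓ Subgroup.centralizer ({sg} : Set _) : Subgroup _) : Set (Mdl (2 ^ n)))).ncard ≤ 2 := by
    refine (Set.ncard_le_ncard (t := {io d d, io (d + half n) (d + half n)}) ?_ (Set.toFinite _)).trans
      ((Set.ncard_insert_le _ _).trans (by simp))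
    rintro _ ⟨m, hm, rfl⟩
    have hms : Commute m sg := Subgroup.mem_centralizer_singleton_iff.1 hm.2
    have hc := orbW m hm.1 hms
    have hb : (m * io d d * m⁻¹).b = (m * io d d * m⁻¹).a := (commute_sg_iff _).1 (by
      have e := conjBy_commute m (((commute_sg_iff (io d d)).2 rfl : Commute (io d d) sg))
      rwa [show m * sg * m⁻¹ = sg by rw [hms.eq, mul_inv_cancel_right]] at e)
    have hk := conj_k m (io d d)
    have hl := conj_l m (io d d)
    show m * io d d * m⁻¹ ∈ _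
    generalize m * io d d * m⁻¹ = y at hb hk hl hc
    obtain ⟨u, v, k, l⟩ := y
    simp only at hb hk hl
    subst hb hk hl
    rcases commute_io_zero_iff hn1 rfl hc with ⟨h, -, -⟩ | ⟨-, e, -⟩
    · exact Bool.noConfusion h
    · rcases eq_zero_or_half hn1 e with e | e <;> simp only at e
      · simp [sub_eq_zero.1 e]
      · simp [sub_eq_iff_eq_add.1 e, add_comm]
  rw [card_eq_orbit_mul P sg, card_eq_orbit_mul (P ⊓ Subgroup.centralizer ({sg} : Set _)) (io d d)]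
  calc _ ≤ 2 * (2 * 8) := Nat.mul_le_mul o1 (Nat.mul_le_mul o2 h8)
    _ = 32 := by norm_num

/-- Transport of the bound along an automorphism. -/
theorem bound_transport {j' : Mdl (2 ^ n) →* G} (c' : Cfg S j') (hs : ¬ R j' sg (zc n))
    (hsi : ¬ R j' sgi (zc n)) (e : Mdl (2 ^ n) ≃* Mdl (2 ^ n)) (he : e (zc n) = zc n)
    (hR : ∀ a b, R j' (e a) (e b) ↔ R j a b) (P : Subgroup (Mdl (2 ^ n))) (y τ : Mdl (2 ^ n))
    (hy : e y = sg) (hτ : R j τ (zc n)) (hτz : τ ≠ zc n) (hτy : Commute τ y)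
    (orbY : ∀ m ∈ P, Commute (m * y * m⁻¹) y)
    (orbW : ∀ m ∈ P, Commute m y → Commute (m * τ * m⁻¹) τ) :
    Nat.card P ≤ 32 ∧
      Nat.card ↥(P ⊓ Subgroup.centralizer ({y} : Set _) ⊓ Subgroup.centralizer ({τ} : Set _)) ≤ 8 := by
  haveI : NeZero (2 ^ n) := ⟨by positivity⟩
  obtain ⟨h32, h8⟩ := c'.bound_sg hs hsi (P.map e.toMonoidHom) (e τ)
    (he ▸ (hR τ (zc n)).2 hτ) (fun h => hτz (e.injective (h.trans he.symm))) (hy ▸ hτy.map e.toMonoidHom)
    (by rintro _ ⟨m, hm, rfl⟩; simpa [hy] using (orbY m hm).map e.toMonoidHom)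
    (by
      rintro _ ⟨m, hm, rfl⟩ hc
      have hc' : Commute m y := e.injective (by simpa [hy] using hc.eq)
      simpa using (orbW m hm hc').map e.toMonoidHom)
  refine ⟨by rwa [Subgroup.card_map_of_injective e.injective] at h32, le_trans ?_ h8⟩
  rw [← Subgroup.card_map_of_injective (f := e.toMonoidHom) e.injective]
  refine Nat.le_of_dvd Nat.card_pos (Subgroup.card_dvd_of_le ?_)
  rintro _ ⟨m, ⟨⟨hm, hmy⟩, hmτ⟩, rfl⟩
  refine ⟨⟨⟨m, hm, rfl⟩, ?_⟩, ?_⟩
  · refine Subgroup.mem_centralizer_singleton_iff.2 ?_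
    rw [← hy]
    exact (Commute.map (Subgroup.mem_centralizer_singleton_iff.1 hmy) e.toMonoidHom).eq
  · refine Subgroup.mem_centralizer_singleton_iff.2 ?_
    exact (Commute.map (Subgroup.mem_centralizer_singleton_iff.1 hmτ) e.toMonoidHom).eq

variable [IsSimpleGroup G]

/-- The bound in the model. -/
theorem bound_model (c : Cfg S j) (hn3 : 3 ≤ n) (hs : ¬ R j sg (zc n))
    (P : Subgroup (Mdl (2 ^ n))) (y τ : Mdl (2 ^ n))
    (hy : R j y sg) (hτ : R j τ (zc n)) (hτz : τ ≠ zc n) (hτy : Commute τ y)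
    (orbY : ∀ m ∈ P, Commute (m * y * m⁻¹) y)
    (orbW : ∀ m ∈ P, Commute m y → Commute (m * τ * m⁻¹) τ)
    (orb4 : ((fun k => k * y * k⁻¹) '' (P : Set (Mdl (2 ^ n)))).ncard ≤ 4) :
    Nat.card P ≤ 32 ∧
      Nat.card ↥(P ⊓ Subgroup.centralizer ({y} : Set _) ⊓ Subgroup.centralizer ({τ} : Set _)) ≤ 8 := by
  haveI : NeZero (2 ^ n) := ⟨by positivity⟩
  have hn1 : 1 ≤ n := by omega
  obtain ⟨-, hsi⟩ := c.sgi_of_sg hs
  obtain ⟨h1, h2⟩ := c.inv_of_R hy c.sg_inv.1 c.sg_inv.2.1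
  have hnz : ¬ R j y (zc n) := fun h => hs (hy.symm.trans h)
  rcases involution_cases hn1 h1 h2 with h | h | h | ⟨a, b, h⟩ | ⟨a, h⟩ | ⟨a, h⟩
  · exact absurd (c.R_tr (Or.inl h)) hnz
  · exact absurd (c.R_tr (Or.inr (Or.inl h))) hnz
  · exact absurd (c.R_tr (Or.inr (Or.inr h))) hnz
  · subst h
    have hab : par hn1 a ≠ par hn1 b := fun hab => c.not_even hn3 hs hab hy
    have h8 : Nat.card ↥(P ⊓ Subgroup.centralizer ({io a b} : Set _)) ≤ 8 := by
      rw [← SetLike.coe_sort_coe, Nat.card_coe_set_eq]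
      refine (Set.ncard_le_ncard ?_ (Set.toFinite _)).trans (Mdl.centralizer_io_odd_le hn1 hab)
      intro m hm
      exact Subgroup.mem_centralizer_singleton_iff.1 hm.2
    refine ⟨?_, (Nat.le_of_dvd Nat.card_pos (Subgroup.card_dvd_of_le inf_le_left)).trans h8⟩
    rw [card_eq_orbit_mul P (io a b)]
    exact (Nat.mul_le_mul orb4 h8).trans (by norm_num)
  · subst h
    obtain ⟨u, hu⟩ := isConj_iff.1 (Mdl.isConj_sg a).symm
    refine c.bound_transport hs hsi (MulAut.conj u) ?_ (fun p q => ?_) P _ τ hu hτ hτz hτy orbY orbW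
    · rw [MulAut.conj_apply, (commute_zc hn1 u).eq, mul_inv_cancel_right]
    · have hc : ∀ p, R j p (MulAut.conj u p) := fun p => R.of_isConj (isConj_iff.2 ⟨u, rfl⟩)
      exact ⟨fun h => (hc p).trans (h.trans (hc q).symm), fun h => (hc p).symm.trans (h.trans (hc q))⟩
  · subst h
    obtain ⟨u, hu⟩ := isConj_iff.1 (Mdl.isConj_sgi a).symm
    refine c.flip.bound_transport ?_ ?_ ((MulAut.conj u).trans (Mdl.flip (N := 2 ^ n))) ?_ (fun p q => ?_)
      P _ τ ?_ hτ hτz hτy orbY orbW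
    · rw [R_flip, flip_sg, flip_zc hn1]; exact hsi
    · rw [R_flip, flip_sgi, flip_zc hn1]; exact hs
    · rw [MulEquiv.trans_apply, MulAut.conj_apply, (commute_zc hn1 u).eq, mul_inv_cancel_right,
        flip_zc hn1]
    · have hc : ∀ p, R j p (MulAut.conj u p) := fun p => R.of_isConj (isConj_iff.2 ⟨u, rfl⟩)
      have hf : ∀ x : Mdl (2 ^ n), Mdl.flip (Mdl.flip x) = x := fun x => by
        obtain ⟨s, t, k, l⟩ := x
        cases k <;> cases l <;> simp [Mdl.flip_apply]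
      rw [R_flip, MulEquiv.trans_apply, MulEquiv.trans_apply, hf, hf]
      exact ⟨fun h => (hc p).trans (h.trans (hc q).symm), fun h => (hc p).symm.trans (h.trans (hc q))⟩
    · rw [MulEquiv.trans_apply, show MulAut.conj u ⟨a, a, true, true⟩ = sgi from hu, flip_sgi]

/-- The bound in the group. -/
theorem bound (c : Cfg S j) (hn3 : 3 ≤ n) (hs : ¬ R j sg (zc n)) (P : Subgroup G) (hP : IsPGroup 2 P)
    (X W w₀ : G) (hw₀ : IsConj w₀ (j (zc n))) (hPw₀ : ∀ p ∈ P, Commute p w₀)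
    (hX : IsConj X (j sg)) (hXP : X ∈ P) (hW : IsConj W (j (zc n))) (hWP : W ∈ P) (hne : W ≠ w₀)
    (hWX : Commute W X) (orbY : ∀ p ∈ P, Commute (p * X * p⁻¹) X)
    (orbW : ∀ p ∈ P, Commute p X → Commute (p * W * p⁻¹) W)
    (orb4 : ((fun k => k * X * k⁻¹) '' (P : Set G)).ncard ≤ 4) :
    Nat.card P ≤ 32 ∧
      Nat.card ↥(P ⊓ Subgroup.centralizer ({X} : Set G) ⊓ Subgroup.centralizer ({W} : Set G)) ≤ 8 := by
  haveI : NeZero (2 ^ n) := ⟨by positivity⟩
  obtain ⟨g₀, hg₀⟩ := isConj_iff.1 hw₀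
  obtain ⟨g, hgw, hgP⟩ := exists_map_centralizer S c.commute_z hg₀ P hP hPw₀
  have hpre : ∀ p : P, ∃ m, j m = g * p.1 * g⁻¹ := fun p => c.exists_pre (hgP _ p.2)
  choose f hf using hpre
  set P' := (P.map (MulAut.conj g).toMonoidHom).comap j with hP'
  have hmem : ∀ m ∈ P', ∃ p ∈ P, j m = g * p * g⁻¹ := fun m hm => by
    obtain ⟨p, hp, e⟩ := hm
    exact ⟨p, hp, e.symm⟩
  have hback : ∀ a b : G, Commute (g * a * g⁻¹) (g * b * g⁻¹) → Commute a b := fun a b h => by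
    simpa [mul_assoc] using conjBy_commute g⁻¹ h
  set y := f ⟨X, hXP⟩ with hy
  set τ := f ⟨W, hWP⟩ with hτ
  have hjy : j y = g * X * g⁻¹ := hf _
  have hjτ : j τ = g * W * g⁻¹ := hf _
  have hRy : R j y sg := (isConj_iff.2 ⟨g, hjy.symm⟩ : IsConj X (j y)).symm.trans hX
  have hRτ : R j τ (zc n) := (isConj_iff.2 ⟨g, hjτ.symm⟩ : IsConj W (j τ)).symm.trans hW
  have hτz : τ ≠ zc n := fun h => by
    apply hne
    have e : g * W * g⁻¹ = g * w₀ * g⁻¹ := by rw [← hjτ, h, hgw]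
    rwa [mul_left_inj, mul_right_inj] at e
  have hτy : Commute τ y := c.commute_iff.1 (by rw [hjy, hjτ]; exact conjBy_commute g hWX)
  have cv : ∀ p : G, ∀ m : Mdl (2 ^ n), j m = g * p * g⁻¹ → ∀ (z : G) (w : Mdl (2 ^ n)),
      j w = g * z * g⁻¹ → j (m * w * m⁻¹) = g * (p * z * p⁻¹) * g⁻¹ := fun p m hm z w hw => by
    rw [map_mul, map_mul, map_inv, hm, hw]; group
  obtain ⟨h32, h8⟩ := c.bound_model hn3 hs P' y τ hRy hRτ hτz hτy
    (fun m hm => by
      obtain ⟨p, hp, e⟩ := hmem m hm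
      exact c.commute_iff.1 (by rw [cv p m e X y hjy, hjy]; exact conjBy_commute g (orbY p hp)))
    (fun m hm hc => by
      obtain ⟨p, hp, e⟩ := hmem m hm
      have hpX : Commute p X := hback _ _ (by rw [← e, ← hjy]; exact hc.map j)
      exact c.commute_iff.1 (by rw [cv p m e W τ hjτ, hjτ]; exact conjBy_commute g (orbW p hp hpX)))
    (by
      refine le_trans ?_ orb4
      rw [← Set.ncard_image_of_injective _ c.inj,
        ← Set.ncard_image_of_injective ((fun k => k * X * k⁻¹) '' (P : Set G)) (MulAut.conj g).injective]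
      refine Set.ncard_le_ncard ?_ (Set.toFinite _)
      rintro _ ⟨_, ⟨m, hm, rfl⟩, rfl⟩
      obtain ⟨p, hp, e⟩ := hmem m hm
      exact ⟨p * X * p⁻¹, ⟨p, hp, rfl⟩, (cv p m e X y hjy).symm⟩)
  have hfinj : ∀ p q : P, f p = f q → p = q := fun p q h => by
    have e := congrArg j h
    rw [hf, hf, mul_left_inj, mul_right_inj] at e
    exact Subtype.ext e
  have hfmem : ∀ p : P, f p ∈ P' := fun p => ⟨p.1, p.2, (hf p).symm⟩
  refine ⟨le_trans ?_ h32, le_trans ?_ h8⟩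
  · exact Nat.card_le_card_of_injective (fun p => ⟨f p, hfmem p⟩) fun p q h =>
      hfinj p q (congrArg Subtype.val h)
  · refine Nat.card_le_card_of_injective (fun p => ⟨f ⟨p.1, (Subgroup.mem_inf.1 (Subgroup.mem_inf.1 p.2).1).1⟩, ⟨⟨hfmem _, ?_⟩, ?_⟩⟩) fun p q h => ?_
    · refine Subgroup.mem_centralizer_singleton_iff.2 ?_
      exact (c.commute_iff.1 (by
        rw [hf, hjy]; exact conjBy_commute g (Subgroup.mem_centralizer_singleton_iff.1 (Subgroup.mem_inf.1 (Subgroup.mem_inf.1 p.2).1).2))).eq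
    · refine Subgroup.mem_centralizer_singleton_iff.2 ?_
      exact (c.commute_iff.1 (by
        rw [hf, hjτ]; exact conjBy_commute g (Subgroup.mem_centralizer_singleton_iff.1 (Subgroup.mem_inf.1 p.2).2))).eq
    · exact Subtype.ext (congrArg (fun z : P => (z : G)) (hfinj _ _ (congrArg Subtype.val h)))

end Cfsg.Agent.H33.G2Two.Cfg
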