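import Cfsg.Agent.H33.G2Two.Transfer

/-!
An inverting element of even type is not fused to the exchange.
-/

set_option autoImplicit false

namespace Cfsg.Agent.H33.G2Two.Cfg

open Mdl

variable {G : Type*} [Group G] [Finite G] {n : ℕ} {S : Sylow 2 G} {j : Mdl (2 ^ n) →* G}

theorem exists_g_max (c : Cfg S j) (x : Mdl (2 ^ n)) (hx : R j x sg) :
    ∃ g : G, ∃ y : Mdl (2 ^ n), g * j x * g⁻¹ = j y ∧
      (∀ m, Commute m x → ∃ m', j m' = g * j m * g⁻¹) ∧
      4 * 2 ^ n ≤ {m : Mdl (2 ^ n) | Commute m y}.ncard := by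
  haveI : Fact (Nat.Prime 2) := ⟨Nat.prime_two⟩
  haveI : NeZero (2 ^ n) := ⟨by positivity⟩
  set C := Subgroup.centralizer ({j x} : Set G) with hC
  set P := (Subgroup.centralizer ({x} : Set (Mdl (2 ^ n)))).map j with hP
  have hPC : P ≤ C := by
    rintro _ ⟨m, hm, rfl⟩
    rw [hC, Subgroup.mem_centralizer_singleton_iff, ← map_mul, ← map_mul,
      Subgroup.mem_centralizer_singleton_iff.1 hm]
  obtain ⟨T, hT⟩ := ((c.isPGroup _).of_equiv (Subgroup.subgroupOfEquivOfLe hPC).symm :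
    IsPGroup 2 (P.subgroupOf C)).exists_le_sylow
  set T' := (T : Subgroup C).map C.subtype with hT'
  obtain ⟨W, hW⟩ := (T.2.map C.subtype).exists_le_sylow
  obtain ⟨g, hgW⟩ := MulAction.exists_smul_eq G W S
  have hg : ∀ t ∈ T', g * t * g⁻¹ ∈ (S : Subgroup G) := fun t ht => by
    rw [← hgW, Sylow.coe_subgroup_smul]
    exact Subgroup.smul_mem_pointwise_smul _ (MulAut.conj g) _ (hW ht)
  have hxT : j x ∈ T' := ⟨⟨j x, hPC ⟨x, Subgroup.mem_centralizer_singleton_iff.2 rfl, rfl⟩⟩,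
    hT ⟨x, Subgroup.mem_centralizer_singleton_iff.2 rfl, rfl⟩, rfl⟩
  obtain ⟨y, hy⟩ := c.exists_pre (hg _ hxT)
  refine ⟨g, y, hy.symm, fun m hm => c.exists_pre (hg _ ⟨⟨j m, hPC ⟨m,
    Subgroup.mem_centralizer_singleton_iff.2 hm.eq, rfl⟩⟩, hT ⟨m,
    Subgroup.mem_centralizer_singleton_iff.2 hm.eq, rfl⟩, rfl⟩), ?_⟩
  -- the Sylow subgroup of the centraliser is at least that large
  obtain ⟨u, hu⟩ := isConj_iff.1 hx.symm
  set D := ((Subgroup.centralizer ({sg} : Set (Mdl (2 ^ n)))).map j).map (MulAut.conj u).toMonoidHom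
  have hDC : D ≤ C := by
    rintro _ ⟨_, ⟨m, hm, rfl⟩, rfl⟩
    rw [hC, Subgroup.mem_centralizer_singleton_iff, ← hu]
    exact (conjBy_commute u ((show Commute m sg from Subgroup.mem_centralizer_singleton_iff.1 hm).map j)).eq
  obtain ⟨T₁, hT₁⟩ := (((c.isPGroup _).map _).of_equiv (Subgroup.subgroupOfEquivOfLe hDC).symm :
    IsPGroup 2 (D.subgroupOf C)).exists_le_sylow
  have h1 : Nat.card D ≤ Nat.card T' := by
    rw [hT', Subgroup.card_map_of_injective C.subtype_injective, Nat.card_congr (T.equiv T₁).toEquiv,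
      ← Nat.card_congr (Subgroup.subgroupOfEquivOfLe hDC).toEquiv]
    exact Nat.le_of_dvd Nat.card_pos (Subgroup.card_dvd_of_le hT₁)
  have h2 : 4 * 2 ^ n ≤ Nat.card D := by
    rw [Subgroup.card_map_of_injective (MulAut.conj u).injective, Subgroup.card_map_of_injective c.inj,
      ← SetLike.coe_sort_coe, Nat.card_coe_set_eq]
    convert Mdl.le_centralizer_sg n using 2
    ext m
    exact Subgroup.mem_centralizer_singleton_iff
  have h3 : Nat.card T' ≤ {m : Mdl (2 ^ n) | Commute m y}.ncard := by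
    rw [← Nat.card_coe_set_eq]
    have hpre : ∀ t : T', ∃ m : Mdl (2 ^ n), j m = g * t.1 * g⁻¹ := fun t => c.exists_pre (hg _ t.2)
    choose f hf using hpre
    refine Nat.card_le_card_of_injective (fun t => ⟨f t, ?_⟩) ?_
    · show Commute (f t) y
      rw [← c.commute_iff, hy, hf]
      refine conjBy_commute g ?_
      obtain ⟨t', -, e⟩ := t.2
      rw [← e]
      exact Subgroup.mem_centralizer_singleton_iff.1 t'.2
    · intro s t hst
      have e := congrArg (fun z : {m : Mdl (2 ^ n) | Commute m y} => j z.1) hst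
      simp only [hf, mul_left_inj, mul_right_inj] at e
      exact Subtype.ext e
  omega

variable [IsSimpleGroup G]

/-- An exchange class element can be reached exactly. -/
theorem exists_g_sg (c : Cfg S j) (hn3 : 3 ≤ n) (hs : ¬ R j sg (zc n)) (x : Mdl (2 ^ n))
    (hx : R j x sg) :
    ∃ g : G, ∃ y : Mdl (2 ^ n), (y = sg ∨ y = sgi) ∧ g * j x * g⁻¹ = j y ∧
      ∀ m, Commute m x → ∃ m', j m' = g * j m * g⁻¹ := by
  obtain ⟨g, y, hy, hm, hcard⟩ := c.exists_g_max x hx
  have hRy : R j y sg := (isConj_iff.2 ⟨g, hy⟩ : R j x y).symm.trans hx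
  obtain ⟨h1, h2⟩ := c.inv_of_R hRy c.sg_inv.1 c.sg_inv.2.1
  have hnz : ¬ R j y (zc n) := fun h => hs (hRy.symm.trans h)
  have key : ∀ y₀ u : Mdl (2 ^ n), (y₀ = sg ∨ y₀ = sgi) → u * y * u⁻¹ = y₀ →
      ∃ g : G, ∃ y : Mdl (2 ^ n), (y = sg ∨ y = sgi) ∧ g * j x * g⁻¹ = j y ∧
        ∀ m, Commute m x → ∃ m', j m' = g * j m * g⁻¹ := by
    intro y₀ u h0 hu
    refine ⟨j u * g, y₀, h0, ?_, fun m hm' => ?_⟩
    · rw [← hu, map_mul, map_mul, map_inv, ← hy]; group
    · obtain ⟨m', e⟩ := hm m hm'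
      exact ⟨u * m' * u⁻¹, by rw [map_mul, map_mul, map_inv, e]; group⟩
  rcases involution_cases (by omega) h1 h2 with h | h | h | ⟨a, b, h⟩ | ⟨a, h⟩ | ⟨a, h⟩
  · exact absurd (c.R_tr (Or.inl h)) hnz
  · exact absurd (c.R_tr (Or.inr (Or.inl h))) hnz
  · exact absurd (c.R_tr (Or.inr (Or.inr h))) hnz
  · exfalso
    have := Mdl.centralizer_io_le (show 1 ≤ n by omega) a b
    rw [h] at hcard
    have h8 : 8 ≤ 2 ^ n := le_trans (by norm_num) (Nat.pow_le_pow_right (by norm_num) hn3)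
    omega
  · obtain ⟨u, hu⟩ := isConj_iff.1 (Mdl.isConj_sg a).symm
    exact key sg u (Or.inl rfl) (by rw [h]; exact hu)
  · obtain ⟨u, hu⟩ := isConj_iff.1 (Mdl.isConj_sgi a).symm
    exact key sgi u (Or.inr rfl) (by rw [h]; exact hu)

/-- The normalised form of the even case. -/
theorem even_core (c : Cfg S j) (hn3 : 3 ≤ n) (hs : ¬ R j sg (zc n)) (hsi : ¬ R j sgi (zc n))
    (hsis : R j sgi sg) {a b : ZMod (2 ^ n)}
    (hab : par (show 1 ≤ n by omega) a = par (show 1 ≤ n by omega) b) {g : G}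
    (hg : g * j (io a b) * g⁻¹ = j sg)
    (hm : ∀ m, Commute m (io a b) → ∃ m', j m' = g * j m * g⁻¹) : False := by
  have hn1 : 1 ≤ n := by omega
  obtain ⟨u, hu⟩ := isConj_iff.1 (Mdl.isConj_io hn1 (a := a) (b := a) (c := a) (d := b) rfl hab)
  -- transport to the symmetric element
  set g' := g * j u with hg'
  have hg1 : g' * j (io a a) * g'⁻¹ = j sg := by
    rw [← hg, ← hu, map_mul, map_mul, map_inv, hg']; group
  have hm1 : ∀ m, Commute m (io a a) → ∃ m', j m' = g' * j m * g'⁻¹ := fun m hm' => by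
    obtain ⟨m', e⟩ := hm (u * m * u⁻¹) (hu ▸ conjBy_commute u hm')
    exact ⟨m', by rw [e, hg', map_mul, map_mul, map_inv]; group⟩
  have hsgc : Commute (sg : Mdl (2 ^ n)) (io a a) := ((commute_sg_iff _).2 rfl).symm
  have ht0c : Commute (t0 n) (io a a) := by
    show _ = _
    simp [Mdl.mul_def, neg_half hn1, add_comm]
  obtain ⟨p, hp⟩ := hm1 _ ht0c
  obtain ⟨r, hr⟩ := hm1 _ hsgc
  obtain ⟨q, hq⟩ := hm1 _ (commute_zc hn1 (io a a)).symm
  have hps : Commute p sg := c.commute_iff.1 (by rw [hp, ← hg1]; exact conjBy_commute g' (ht0c.map j))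
  have hrs : Commute r sg := c.commute_iff.1 (by
    rw [hr]
    have e := conjBy_commute g' (hsgc.map j)
    rwa [hg1] at e)
  have hpr : ¬ Commute p r := fun h => by
    have h' := h.map j
    rw [hp, hr] at h'
    have h'' := conjBy_commute g'⁻¹ h'
    simp only [mul_assoc, inv_inv, inv_mul_cancel_left, inv_mul_cancel, mul_one] at h''
    exact half_ne_zero hn1 ((commute_sg_iff _).1 (c.commute_iff.1 h'')).symm
  have hRp : R j p (zc n) := (isConj_iff.2 ⟨g', hp.symm⟩ : R j (t0 n) p).symm.trans c.R_t0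
  have hRr : R j r sg := (isConj_iff.2 ⟨g', hr.symm⟩ : R j sg r).symm
  obtain ⟨hp1, hp2⟩ := c.inv_of_R hRp c.zc_inv.1 c.zc_inv.2
  obtain ⟨hr1, hr2⟩ := c.inv_of_R hRr c.sg_inv.1 c.sg_inv.2.1
  rw [commute_sg_iff] at hps hrs
  obtain ⟨d, hd⟩ : ∃ d, p = io d d := by
    rcases involution_cases hn1 hp1 hp2 with h | h | h | ⟨d, d', h⟩ | ⟨d, h⟩ | ⟨d, h⟩
    · exact absurd (h ▸ (commute_zc hn1 r).symm) hpr
    · rw [h] at hps; exact absurd hps.symm (half_ne_zero hn1)
    · rw [h] at hps; exact absurd hps (half_ne_zero hn1)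
    · rw [h] at hps; exact ⟨d, by rw [h]; congr 1⟩
    · exact absurd ((R.of_isConj (Mdl.isConj_sg d)).trans (h ▸ hRp)) hs
    · exact absurd ((R.of_isConj (Mdl.isConj_sgi d)).trans (h ▸ hRp)) hsi
  subst hd
  obtain ⟨e', k, l, rfl⟩ : ∃ e' k l, r = ⟨e', e', k, l⟩ := ⟨r.a, r.k, r.l, by ext <;> simp [hrs]⟩
  -- the commutator is an involution
  cases l
  · exfalso
    apply hpr
    have h2e : 2 * e' = 0 := by
      simp [Mdl.mul_def, Mdl.one_def] at hr1
      linear_combination hr1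
    show _ = _
    cases k <;> simp [Mdl.mul_def] <;> linear_combination -h2e
  have hne : 2 * (d - e') ≠ 0 := fun h => hpr (by
    show _ = _
    cases k <;> simp [Mdl.mul_def] <;> linear_combination h)
  have h4 : 2 * (2 * (d - e')) = 0 := by
    have hcm : (io d d * ⟨e', e', k, true⟩ * (io d d)⁻¹ * (⟨e', e', k, true⟩ : Mdl (2 ^ n))⁻¹) = q := by
      apply c.inj
      have e : t0 n * sg * (t0 n)⁻¹ * sg⁻¹ = zc n := by
        simp [Mdl.mul_def, Mdl.inv_def, neg_half hn1]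
      rw [hq, ← e]
      simp only [map_mul, map_inv]
      rw [hp, hr]; group
    have hq1 : q * q = 1 := by
      apply c.inj
      rw [map_mul, hq, map_one]
      calc g' * j (zc n) * g'⁻¹ * (g' * j (zc n) * g'⁻¹) = g' * (j (zc n) * j (zc n)) * g'⁻¹ := by group
        _ = 1 := by rw [← map_mul, c.zc_inv.1, map_one]; group
    rw [← hcm] at hq1
    cases k <;> simp [Mdl.mul_def, Mdl.inv_def, Mdl.one_def] at hq1 <;> linear_combination hq1
  have hhalf : 2 * (d - e') = half n := (eq_zero_or_half hn1 h4).resolve_left hne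
  have hpar : par hn1 d = par hn1 e' := by
    rw [← sub_eq_zero, ← map_sub]
    have hd' : 2 * (d - e' - quarter n) = 0 := by rw [mul_sub, hhalf, two_quarter c.hn, sub_self]
    have hq0 : par hn1 (quarter n) = 0 := by
      rw [quarter, par, map_natCast, ZMod.natCast_eq_zero_iff]
      exact dvd_pow_self 2 (by omega)
    rcases eq_zero_or_half hn1 hd' with h | h
    · rw [sub_eq_zero.1 h, hq0]
    · rw [sub_eq_iff_eq_add.1 h, map_add, hq0, par_half c.hn, add_zero]
  have hio : R j (io e' e') (zc n) :=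
    (R.of_isConj (Mdl.isConj_io hn1 hpar hpar)).symm.trans hRp
  cases k
  · exact hs (hRr.symm.trans hio)
  · have h1 : g' * j (io a a * sg) * g'⁻¹ = j (io e' e') := by
      have hmul : (sg : Mdl (2 ^ n)) * ⟨e', e', true, true⟩ = io e' e' := by simp [Mdl.mul_def]
      rw [map_mul, ← hmul, map_mul, hr, ← hg1]; group
    have h2 : R j (io a a * sg) (zc n) := (isConj_iff.2 ⟨g', h1⟩ : R j _ _).trans hio
    have h3 : IsConj (sgi : Mdl (2 ^ n)) (io a a * sg) := by
      have : io a a * (sg : Mdl (2 ^ n)) = ⟨a, a, true, true⟩ := by simp [Mdl.mul_def]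
      rw [this]; exact Mdl.isConj_sgi a
    exact hsi ((R.of_isConj h3).trans h2)

theorem flip_sg : Mdl.flip (sg : Mdl (2 ^ n)) = sgi := by simp [Mdl.flip_apply]

theorem flip_sgi : Mdl.flip (sgi : Mdl (2 ^ n)) = sg := by simp [Mdl.flip_apply]

theorem flip_zc (hn : 1 ≤ n) : Mdl.flip (zc n) = zc n := by simp [Mdl.flip_apply, neg_half hn]

omit [Finite G] [IsSimpleGroup G] in
theorem R_flip {a b : Mdl (2 ^ n)} :
    R (j.comp (Mdl.flip (N := 2 ^ n)).toMonoidHom) a b ↔ R j (Mdl.flip a) (Mdl.flip b) := Iff.rfl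

/-- An inverting element of even type is fused to the centre. -/
theorem not_even (c : Cfg S j) (hn3 : 3 ≤ n) (hs : ¬ R j sg (zc n)) {a b : ZMod (2 ^ n)}
    (hab : par (show 1 ≤ n by omega) a = par (show 1 ≤ n by omega) b) : ¬ R j (io a b) sg := by
  intro h
  obtain ⟨hsis, hsi⟩ := c.sgi_of_sg hs
  obtain ⟨g, y, hy, hgx, hm⟩ := c.exists_g_sg hn3 hs (io a b) h
  rcases hy with rfl | rfl
  · exact c.even_core hn3 hs hsi hsis hab hgx hm
  · have e : Mdl.flip (io a (-b)) = io a b := by simp [Mdl.flip_apply]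
    refine c.flip.even_core hn3 ?_ ?_ ?_ (a := a) (b := -b) ?_ (g := g) ?_ ?_
    · rw [R_flip, flip_sg, flip_zc (by omega)]; exact hsi
    · rw [R_flip, flip_sgi, flip_zc (by omega)]; exact hs
    · rw [R_flip, flip_sg, flip_sgi]; exact hsis.symm
    · rw [map_neg, CharTwo.neg_eq]; exact hab
    · show g * j (Mdl.flip (io a (-b))) * g⁻¹ = j (Mdl.flip sg)
      rw [e, flip_sg]; exact hgx
    · intro m hm'
      obtain ⟨m', hm''⟩ := hm (Mdl.flip m) (e ▸ hm'.map (Mdl.flip (N := 2 ^ n)).toMonoidHom)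
      exact ⟨(Mdl.flip (N := 2 ^ n)).symm m', by
        show j (Mdl.flip ((Mdl.flip (N := 2 ^ n)).symm m')) = g * j (Mdl.flip m) * g⁻¹
        rw [MulEquiv.apply_symm_apply]; exact hm''⟩

end Cfsg.Agent.H33.G2Two.Cfg
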