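import Cfsg.Agent.H33.G2Two.Classes
import Cfsg.Agent.H33.G2Two.Hom
import Cfsg.Agent.H33.G2Two.Basics
import Cfsg.Agent.S3279
import Mathlib

/-!
Fusion in a simple group whose Sylow 2-subgroup is the model.
-/

set_option autoImplicit false

namespace Cfsg.Agent.H33.G2Two

open Mdl

variable {G : Type*} [Group G] [Finite G] {n : ℕ} {S : Sylow 2 G} {j : Mdl (2 ^ n) →* G}

/-- The hypotheses: the model is a Sylow 2-subgroup. -/
structure Cfg (S : Sylow 2 G) (j : Mdl (2 ^ n) →* G) : Prop where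
  hn : 2 ≤ n
  inj : Function.Injective j
  range_eq : j.range = (S : Subgroup G)

/-- Conjugacy in `G` of two elements of the model. -/
def R (j : Mdl (2 ^ n) →* G) (a b : Mdl (2 ^ n)) : Prop := IsConj (j a) (j b)

omit [Finite G] in
theorem R.refl (a : Mdl (2 ^ n)) : R j a a := IsConj.refl _

omit [Finite G] in
theorem R.symm {a b : Mdl (2 ^ n)} (h : R j a b) : R j b a := IsConj.symm h

omit [Finite G] in
theorem R.trans {a b c : Mdl (2 ^ n)} (h : R j a b) (h' : R j b c) : R j a c := IsConj.trans h h'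

omit [Finite G] in
theorem R.of_isConj {a b : Mdl (2 ^ n)} (h : IsConj a b) : R j a b := j.map_isConj h

namespace Cfg

theorem flip (c : Cfg S j) : Cfg S (j.comp (Mdl.flip (N := 2 ^ n)).toMonoidHom) where
  hn := c.hn
  inj := c.inj.comp (MulEquiv.injective _)
  range_eq := by
    rw [← c.range_eq, MonoidHom.range_comp]
    conv_rhs => rw [MonoidHom.range_eq_map]
    rw [MonoidHom.range_eq_top.2 (MulEquiv.surjective _)]

theorem mem (c : Cfg S j) (m : Mdl (2 ^ n)) : j m ∈ (S : Subgroup G) := c.range_eq ▸ ⟨m, rfl⟩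

theorem exists_pre (c : Cfg S j) {g : G} (h : g ∈ (S : Subgroup G)) : ∃ m, j m = g := by
  rwa [← c.range_eq] at h

theorem commute_iff (c : Cfg S j) {a b : Mdl (2 ^ n)} : Commute (j a) (j b) ↔ Commute a b :=
  ⟨fun h => c.inj (by rw [map_mul, map_mul]; exact h.eq), fun h => h.map j⟩

theorem commute_z (c : Cfg S j) : ∀ s ∈ (S : Subgroup G), Commute s (j (zc n)) := fun s hs => by
  obtain ⟨m, rfl⟩ := c.exists_pre hs
  exact (commute_zc (by have := c.hn; omega) m).map j

theorem isPGroup (c : Cfg S j) (P : Subgroup (Mdl (2 ^ n))) : IsPGroup 2 (P.map j) :=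
  ((Mdl.isPGroup n).to_subgroup P).map j

/-- Moving a conjugate of the central involution to it together with its centraliser. -/
theorem exists_g (c : Cfg S j) {x : Mdl (2 ^ n)} (h : R j x (zc n)) :
    ∃ g : G, g * j x * g⁻¹ = j (zc n) ∧
      ∀ m, Commute m x → ∃ m', j m' = g * j m * g⁻¹ := by
  obtain ⟨g₀, hg₀⟩ := isConj_iff.1 h
  obtain ⟨g, hg, hgP⟩ := exists_map_centralizer S c.commute_z hg₀
    ((Subgroup.centralizer {x}).map j) (c.isPGroup _) (by
      rintro _ ⟨m, hm, rfl⟩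
      exact Commute.map (Subgroup.mem_centralizer_singleton_iff.1 hm) j)
  exact ⟨g, hg, fun m hm => c.exists_pre
    (hgP _ ⟨m, Subgroup.mem_centralizer_singleton_iff.2 hm.eq, rfl⟩)⟩

theorem inv_of_R (c : Cfg S j) {a b : Mdl (2 ^ n)} (h : R j a b) (hb : b * b = 1) (hb1 : b ≠ 1) :
    a * a = 1 ∧ a ≠ 1 := by
  obtain ⟨g, hg⟩ := isConj_iff.1 h.symm
  refine ⟨c.inj ?_, fun h1 => hb1 (c.inj ?_)⟩
  · rw [map_mul, map_one, ← hg]
    calc g * j b * g⁻¹ * (g * j b * g⁻¹) = g * (j b * j b) * g⁻¹ := by group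
      _ = 1 := by rw [← map_mul, hb, map_one]; group
  · rw [map_one]
    rw [h1, map_one] at hg
    simpa using hg

theorem zc_inv (c : Cfg S j) : zc n * zc n = 1 ∧ zc n ≠ 1 := by
  have := c.hn
  refine ⟨?_, fun h => half_ne_zero (n := n) (by omega) (congrArg Mdl.a h)⟩
  have e := two_half (n := n) (by omega)
  rw [two_mul] at e
  simp [Mdl.mul_def, Mdl.one_def, e]

theorem sg_inv (_c : Cfg S j) :
    (sg : Mdl (2 ^ n)) * sg = 1 ∧ (sg : Mdl (2 ^ n)) ≠ 1 ∧
      (sgi : Mdl (2 ^ n)) * sgi = 1 ∧ (sgi : Mdl (2 ^ n)) ≠ 1 := by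
  refine ⟨by simp [Mdl.mul_def, Mdl.one_def], fun h => Bool.noConfusion (congrArg Mdl.k h),
    by simp [Mdl.mul_def, Mdl.one_def], fun h => Bool.noConfusion (congrArg Mdl.k h)⟩

/-! ### The translations of order two are conjugate to the central involution -/

theorem t0_of_commutator (c : Cfg S j) {w a b : Mdl (2 ^ n)} (hw : R j w (zc n)) (hne : w ≠ zc n)
    (ha : Commute a w) (hb : Commute b w) (e : a * b * a⁻¹ * b⁻¹ = zc n) : R j (t0 n) (zc n) := by
  obtain ⟨g, hg, hgP⟩ := c.exists_g hw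
  obtain ⟨a', ha'⟩ := hgP a ha
  obtain ⟨b', hb'⟩ := hgP b hb
  have hv : j (a' * b' * a'⁻¹ * b'⁻¹) = g * j (a * b * a⁻¹ * b⁻¹) * g⁻¹ := by
    simp only [map_mul, map_inv]; rw [ha', hb']; group
  rw [e] at hv
  have hR : R j (zc n) (a' * b' * a'⁻¹ * b'⁻¹) := isConj_iff.2 ⟨g, hv.symm⟩
  obtain ⟨hv1, hv2⟩ := c.inv_of_R hR.symm c.zc_inv.1 c.zc_inv.2
  obtain ⟨hk, hl⟩ := Mdl.commutator_kl a' b'
  have := c.hn
  rcases involution_cases (by omega) hv1 hv2 with h | h | h | ⟨_, _, h⟩ | ⟨_, h⟩ | ⟨_, h⟩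
  · exfalso
    rw [h] at hv
    apply hne
    apply c.inj
    have hz : g * j w * g⁻¹ = g * j (zc n) * g⁻¹ := hg.trans hv
    rwa [mul_left_inj, mul_right_inj] at hz
  · exact (h ▸ hR).symm
  · exact (R.of_isConj (isConj_iff.2 ⟨sg, conj_sg_t0⟩)).trans (h ▸ hR).symm
  · rw [h] at hl; exact Bool.noConfusion hl
  · rw [h] at hk; exact Bool.noConfusion hk
  · rw [h] at hk; exact Bool.noConfusion hk

theorem t0_of_sg (c : Cfg S j) (h : R j sg (zc n)) : R j (t0 n) (zc n) := by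
  have hn := c.hn
  refine c.t0_of_commutator (a := tr (quarter n) (quarter n)) (b := io 0 0) h
    (fun h => Bool.noConfusion (congrArg Mdl.k h)) ((commute_sg_iff _).2 rfl) ((commute_sg_iff _).2 rfl) ?_
  have e := two_quarter hn
  rw [two_mul] at e
  simp [Mdl.mul_def, Mdl.inv_def, e]

theorem t0_of_sgi (c : Cfg S j) (h : R j sgi (zc n)) : R j (t0 n) (zc n) := by
  have h' : R (j.comp (Mdl.flip (N := 2 ^ n)).toMonoidHom) sg (zc n) := by
    show IsConj (j (Mdl.flip sg)) (j (Mdl.flip (zc n)))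
    have e1 : Mdl.flip (sg : Mdl (2 ^ n)) = sgi := by simp [Mdl.flip_apply]
    have e2 : Mdl.flip (zc n) = zc n := by
      simp [Mdl.flip_apply, neg_half (show 1 ≤ n by have := c.hn; omega)]
    rw [e1, e2]; exact h
  have h0 := c.flip.t0_of_sg h'
  have e0 : Mdl.flip (t0 n) = t0 n := by simp [Mdl.flip_apply]
  have e2 : Mdl.flip (zc n) = zc n := by
    simp [Mdl.flip_apply, neg_half (show 1 ≤ n by have := c.hn; omega)]
  simp only [R, MonoidHom.coe_comp, Function.comp_apply, MulEquiv.coe_toMonoidHom, e0, e2] at h0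
  exact h0

theorem t0_of_io (c : Cfg S j) {a b : ZMod (2 ^ n)}
    (hab : par (show 1 ≤ n by have := c.hn; omega) a = par (show 1 ≤ n by have := c.hn; omega) b)
    (h : R j (io a b) (zc n)) : R j (t0 n) (zc n) := by
  have hn := c.hn
  have h' : R j (io a a) (zc n) :=
    (R.of_isConj (Mdl.isConj_io (show 1 ≤ n by omega) rfl hab)).trans h
  refine c.t0_of_commutator (a := t0 n) (b := sg) h' (fun h => Bool.noConfusion (congrArg Mdl.l h))
    ?_ ((commute_sg_iff _).2 rfl).symm ?_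
  · show _ = _
    simp [Mdl.mul_def, neg_half (show 1 ≤ n by omega), add_comm]
  · simp [Mdl.mul_def, Mdl.inv_def, neg_half (show 1 ≤ n by omega)]

/-- The elements fused to the centre other than by the excluded classes. -/
theorem odd_of_not_t0 (c : Cfg S j) (hno : ¬ R j (t0 n) (zc n)) {v : Mdl (2 ^ n)}
    (hv : R j v (zc n)) (hne : v ≠ zc n) :
    ∃ a b, v = io a b ∧
      par (show 1 ≤ n by have := c.hn; omega) a ≠ par (show 1 ≤ n by have := c.hn; omega) b := by
  obtain ⟨h1, h2⟩ := c.inv_of_R hv c.zc_inv.1 c.zc_inv.2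
  have := c.hn
  rcases involution_cases (by omega) h1 h2 with rfl | rfl | rfl | ⟨a, b, rfl⟩ | ⟨a, rfl⟩ | ⟨a, rfl⟩
  · exact absurd rfl hne
  · exact absurd hv hno
  · exact absurd ((R.of_isConj (isConj_iff.2 ⟨sg, conj_sg_t0⟩)).trans hv) hno
  · exact ⟨a, b, rfl, fun hab => hno (c.t0_of_io hab hv)⟩
  · exact absurd (c.t0_of_sg ((R.of_isConj (Mdl.isConj_sg a)).trans hv)) hno
  · exact absurd (c.t0_of_sgi ((R.of_isConj (Mdl.isConj_sgi a)).trans hv)) hno

theorem R_t0 [IsSimpleGroup G] (c : Cfg S j) : R j (t0 n) (zc n) := by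
  have hn := c.hn
  have hn1 : 1 ≤ n := by omega
  by_contra hno
  have hz2 : orderOf (j (zc n)) = 2 := Cfsg.Agent.S3279.two_of_sq_one
    (by rw [← map_mul, c.zc_inv.1, map_one])
    (fun h => c.zc_inv.2 (c.inj (h.trans (map_one j).symm)))
  have hx2 : orderOf (j sg) = 2 := Cfsg.Agent.S3279.two_of_sq_one
    (by rw [← map_mul, c.sg_inv.1, map_one]) (fun h => c.sg_inv.2.1 (c.inj (h.trans (map_one j).symm)))
  have hnc : ∃ s, ¬ Commute s (j sg) := by
    refine ⟨j (t0 n), fun h => half_ne_zero hn1 ?_⟩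
    exact ((commute_sg_iff _).1 (c.commute_iff.1 h)).symm
  obtain ⟨g₁, hg₁, hg₁'⟩ : ∃ g, g * j (zc n) * g⁻¹ ∈ (S : Subgroup G) ∧
      g * j (zc n) * g⁻¹ ≠ j (zc n) := by
    by_contra h
    push Not at h
    exact Cfsg.Agent.S3279.not_isolated hx2 hnc S hz2 h
  obtain ⟨w, hw⟩ := c.exists_pre hg₁
  have hRw : R j w (zc n) := (isConj_iff.2 ⟨g₁, hw.symm⟩ : R j (zc n) w).symm
  have hwne : w ≠ zc n := fun h => hg₁' (by rw [← hw, h])
  obtain ⟨a, b, rfl, hab⟩ := c.odd_of_not_t0 hno hRw hwne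
  obtain ⟨g, hg, hgP⟩ := c.exists_g hRw
  obtain ⟨v, hv⟩ := hgP (zc n) (commute_zc hn1 _).symm
  have hRv : R j v (zc n) := (isConj_iff.2 ⟨g, hv.symm⟩ : R j (zc n) v).symm
  have hvne : v ≠ zc n := by
    intro h
    apply hwne
    apply c.inj
    have hz : g * j (io a b) * g⁻¹ = g * j (zc n) * g⁻¹ := by rw [hg, ← hv, h]
    rwa [mul_left_inj, mul_right_inj] at hz
  obtain ⟨a', b', rfl, hab'⟩ := c.odd_of_not_t0 hno hRv hvne
  -- images of the two translations are translations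
  have key : ∀ t : Mdl (2 ^ n), R j t (t0 n) → Commute t (io a b) → Commute t (zc n) →
      ∃ p : Mdl (2 ^ n), j p = g * j t * g⁻¹ ∧ p.l = false := by
    intro t ht htw htz
    obtain ⟨p, hp⟩ := hgP t htw
    refine ⟨p, hp, ?_⟩
    have hpv : Commute p (io a' b') := c.commute_iff.1 (by rw [hv, hp]; exact conjBy_commute g (htz.map j))
    rcases Bool.eq_false_or_eq_true p.k with hk | hk
    · exact absurd (par_eq_of_commute_io hn1 hk hpv) hab'
    · rcases commute_io_zero_iff hn1 hk hpv with ⟨hl, -, -⟩ | ⟨hl, e1, e2⟩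
      · exact hl
      · exfalso
        apply hno
        have hpar : ∀ x y : ZMod (2 ^ n), 2 * (x - y) = 0 → par hn1 x = par hn1 y := fun x y he => by
          rw [← sub_eq_zero, ← map_sub]
          rcases eq_zero_or_half hn1 he with h | h <;> rw [h]
          · exact map_zero _
          · exact par_half hn
        have hconj : IsConj p (io a' b') := by
          have hp' : p = io p.a p.b := by ext <;> simp [hk, hl]
          rw [hp']
          exact Mdl.isConj_io hn1 (hpar _ _ e1) (hpar _ _ e2)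
        exact ht.symm.trans
          (((isConj_iff.2 ⟨g, hp.symm⟩ : R j t p).trans (R.of_isConj hconj)).trans hRv)
  have hcomm : ∀ u v : ZMod (2 ^ n), 2 * u = 0 → 2 * v = 0 → Commute (tr u v) (io a b) := fun u v hu hv => by
    show _ = _
    simp [Mdl.mul_def]
    exact ⟨by linear_combination hu, by linear_combination hv⟩
  obtain ⟨p, hp, hpl⟩ := key (t0 n) (R.refl _) (hcomm _ _ (two_half hn1) (mul_zero 2))
    (commute_zc hn1 _)
  obtain ⟨q, hq, hql⟩ := key (t1 n) (R.of_isConj (isConj_iff.2 ⟨sg, conj_sg_t0⟩)).symm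
    (hcomm _ _ (mul_zero 2) (two_half hn1)) (commute_zc hn1 _)
  have e : p * q = io a' b' := c.inj (by
    rw [map_mul, hp, hq, hv, ← t0_mul_t1, map_mul]; group)
  have := congrArg Mdl.l e
  simp [Mdl.mul_def, hpl, hql] at this

end Cfg

end Cfsg.Agent.H33.G2Two
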