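import Cfsg.Agent.H33.G2Two.Bound

/-!
An inverting element of odd type is not fused to the exchange.
-/

set_option autoImplicit false

namespace Cfsg.Agent.H33.G2Two

open Mdl

/-- The translations of order at most two, indexed by pairs of Booleans. -/
def wOf (n : ℕ) (p : Bool × Bool) : Mdl (2 ^ n) :=
  tr (if p.1 then half n else 0) (if p.2 then half n else 0)

theorem wOf_mul {n : ℕ} (hn : 1 ≤ n) (p q : Bool × Bool) :
    wOf n p * wOf n q = wOf n (xor p.1 q.1, xor p.2 q.2) := by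
  obtain ⟨p1, p2⟩ := p; obtain ⟨q1, q2⟩ := q
  have e : half n + half n = 0 := by rw [← two_mul]; exact two_half hn
  cases p1 <;> cases p2 <;> cases q1 <;> cases q2 <;> simp [wOf, Mdl.mul_def, e]

theorem wOf_injective {n : ℕ} (hn : 1 ≤ n) : Function.Injective (wOf n) := by
  rintro ⟨p1, p2⟩ ⟨q1, q2⟩ h
  have h0 := half_ne_zero hn
  have h1 : (if p1 then half n else 0) = (if q1 then half n else 0) := congrArg Mdl.a h
  have h2 : (if p2 then half n else 0) = (if q2 then half n else 0) := congrArg Mdl.b h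
  cases p1 <;> cases p2 <;> cases q1 <;> cases q2 <;> simp_all [h0.symm]

theorem two_ite_half {n : ℕ} (hn : 1 ≤ n) (p : Bool) :
    2 * (if p then half n else 0) = 0 := by
  cases p <;> simp [two_half hn]

theorem commute_wOf {n : ℕ} (hn : 1 ≤ n) (a b : ZMod (2 ^ n)) (p : Bool × Bool) :
    Commute (wOf n p) (io a b) := by
  show _ = _
  simp [wOf, Mdl.mul_def]
  exact ⟨by linear_combination two_ite_half hn p.1, by linear_combination two_ite_half hn p.2⟩

/-- The centraliser of an inverting element of odd type, described. -/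
theorem mem_centralizer_io {n : ℕ} (hn : 1 ≤ n) {a b : ZMod (2 ^ n)} (hab : par hn a ≠ par hn b)
    {x : Mdl (2 ^ n)} (hx : Commute x (io a b)) :
    ∃ p, x = wOf n p ∨ x = io a b * wOf n p := by
  have hk : x.k = false := by
    rcases Bool.eq_false_or_eq_true x.k with hk | hk
    · exact absurd (par_eq_of_commute_io hn hk hx) hab
    · exact hk
  have h := mem_eight hn hk hx
  simp only [eight, Set.mem_insert_iff, Set.mem_singleton_iff] at h
  have e : -half n = half n := neg_half hn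
  rcases h with h | h | h | h | h | h | h | h <;> subst h
  · exact ⟨(false, false), Or.inl rfl⟩
  · exact ⟨(true, false), Or.inl rfl⟩
  · exact ⟨(false, true), Or.inl rfl⟩
  · exact ⟨(true, true), Or.inl rfl⟩
  · exact ⟨(false, false), Or.inr (by simp [wOf, Mdl.mul_def])⟩
  · exact ⟨(true, false), Or.inr (by simp [wOf, Mdl.mul_def, e])⟩
  · exact ⟨(false, true), Or.inr (by simp [wOf, Mdl.mul_def, e])⟩
  · exact ⟨(true, true), Or.inr (by simp [wOf, Mdl.mul_def, e])⟩

namespace Cfg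

variable {G : Type*} [Group G] [Finite G] [IsSimpleGroup G] {n : ℕ} {S : Sylow 2 G}
  {j : Mdl (2 ^ n) →* G}

/-- An inverting element of odd type is fused to the centre. -/
theorem not_odd (c : Cfg S j) (hn3 : 3 ≤ n) (hs : ¬ R j sg (zc n)) {a b : ZMod (2 ^ n)}
    (hab : par (show 1 ≤ n by omega) a ≠ par (show 1 ≤ n by omega) b) : ¬ R j (io a b) sg := by
  intro hR
  haveI : Fact (Nat.Prime 2) := ⟨Nat.prime_two⟩
  haveI : NeZero (2 ^ n) := ⟨by positivity⟩
  have hn1 : 1 ≤ n := by omega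
  have h8' : 8 ≤ 2 ^ n := le_trans (by norm_num) (Nat.pow_le_pow_right (by norm_num) hn3)
  set x : Mdl (2 ^ n) := io a b with hx
  set X := j x with hX
  set E := (Subgroup.centralizer ({x} : Set (Mdl (2 ^ n)))).map j with hE
  set W : Bool × Bool → G := fun p => j (wOf n p) with hW
  have hWinj : Function.Injective W := c.inj.comp (wOf_injective hn1)
  have hWm : ∀ p q, W p * W q = W (xor p.1 q.1, xor p.2 q.2) := fun p q => by
    show j _ * j _ = j _; rw [← map_mul, wOf_mul hn1]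
  have hWE : ∀ p, W p ∈ E := fun p =>
    ⟨_, Subgroup.mem_centralizer_singleton_iff.2 (commute_wOf hn1 a b p).eq, rfl⟩
  have hXE : X ∈ E := ⟨x, Subgroup.mem_centralizer_singleton_iff.2 rfl, rfl⟩
  have hEm : ∀ e ∈ E, ∃ p, e = W p ∨ e = X * W p := by
    rintro _ ⟨m, hm, rfl⟩
    obtain ⟨p, h | h⟩ :=
      mem_centralizer_io hn1 hab (Subgroup.mem_centralizer_singleton_iff.1 hm)
    · exact ⟨p, Or.inl (by rw [h])⟩
    · exact ⟨p, Or.inr (by rw [h, map_mul])⟩
  have hXW : ∀ p, Commute X (W p) := fun p => (commute_wOf hn1 a b p).symm.map j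
  have hWW : ∀ p q, Commute (W p) (W q) := fun p q => by
    show _ = _
    rw [hWm, hWm]; congr 1; simp [Bool.xor_comm]
  have hEab : ∀ e ∈ E, ∀ f ∈ E, Commute e f := by
    intro e he f hf
    obtain ⟨p, rfl | rfl⟩ := hEm e he <;> obtain ⟨q, rfl | rfl⟩ := hEm f hf
    · exact hWW p q
    · exact (hXW p).symm.mul_right (hWW p q)
    · exact (hXW q).mul_left (hWW p q)
    · exact ((Commute.refl X).mul_left (hXW p).symm).mul_right ((hXW q).mul_left (hWW p q))
  have hRW : ∀ p, p ≠ (false, false) → IsConj (W p) (j (zc n)) := by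
    rintro ⟨_ | _, _ | _⟩ hp
    · exact absurd rfl hp
    · exact c.R_tr (Or.inr (Or.inr rfl))
    · exact c.R_tr (Or.inr (Or.inl rfl))
    · exact c.R_tr (Or.inl rfl)
  have hW0 : W (false, false) = 1 := by
    show j _ = 1
    exact map_one j
  have hXW' : ∀ p, IsConj (X * W p) (j sg) := by
    intro p
    have e : x * wOf n p = io (a - (if p.1 then half n else 0)) (b - (if p.2 then half n else 0)) := by
      simp [hx, wOf, Mdl.mul_def]; constructor <;> ring
    have hp : ∀ q : Bool, par hn1 (if q then half n else 0) = 0 := fun q => by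
      cases q <;> simp [par_half c.hn]
    rw [hX, ← map_mul, e]
    exact (R.of_isConj (Mdl.isConj_io hn1 (by rw [map_sub, hp, sub_zero])
      (by rw [map_sub, hp, sub_zero]))).trans hR
  have hne : ∀ e : G, IsConj e (j sg) → IsConj e (j (zc n)) → False := fun e h1 h2 => hs (h1.symm.trans h2)
  have hne1 : ∀ e : G, IsConj e (j sg) → e ≠ 1 := fun e h he => by
    obtain ⟨g, hg⟩ := isConj_iff.1 h
    rw [he, mul_one, mul_inv_cancel] at hg
    exact c.sg_inv.2.1 (c.inj (hg.symm.trans (map_one j).symm))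
  -- elements of `E` fused to the centre
  have hEz : ∀ e ∈ E, IsConj e (j (zc n)) → ∃ p, p ≠ (false, false) ∧ e = W p := by
    intro e he hz
    obtain ⟨p, rfl | rfl⟩ := hEm e he
    · refine ⟨p, fun h => ?_, rfl⟩
      rw [h, hW0] at hz
      obtain ⟨g, hg⟩ := isConj_iff.1 hz
      rw [mul_one, mul_inv_cancel] at hg
      exact c.zc_inv.2 (c.inj (hg.symm.trans (map_one j).symm))
    · exact absurd hz (fun h => hne _ (hXW' p) h)
  -- elements of `E` fused to the exchange
  have hEs : ∀ e ∈ E, IsConj e (j sg) → ∃ p, e = X * W p := by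
    intro e he hz
    obtain ⟨p, rfl | rfl⟩ := hEm e he
    · exfalso
      by_cases h : p = (false, false)
      · exact hne1 _ hz (by rw [h, hW0])
      · exact hne _ hz (hRW p h)
    · exact ⟨p, rfl⟩
  have hconjR : ∀ (g e t : G), IsConj e t → IsConj (g * e * g⁻¹) t := fun g e t h =>
    (isConj_iff.2 ⟨g, rfl⟩ : IsConj e (g * e * g⁻¹)).symm.trans h
  have hfour : (Set.range fun p => X * W p).ncard = 4 := by
    rw [Set.ncard_range_of_injective (fun p q h => hWinj (mul_left_cancel h)), Nat.card_prod,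
      Nat.card_eq_fintype_card, Fintype.card_bool]
  have hE8 : Nat.card E = 8 := by
    let e : Bool × (Bool × Bool) → E := fun p => if p.1 then ⟨X * W p.2, mul_mem hXE (hWE _)⟩ else ⟨W p.2, hWE _⟩
    have hne' : ∀ p q, X * W p ≠ W q := fun p q h => by
      have h1 := hXW' p
      rw [h] at h1
      by_cases hq : q = (false, false)
      · exact hne1 _ h1 (by rw [hq, hW0])
      · exact hne _ h1 (hRW q hq)
    have he : Function.Bijective e := by
      refine ⟨?_, fun f => ?_⟩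
      · rintro ⟨l, p⟩ ⟨l', q⟩ h
        cases l <;> cases l' <;> simp [e] at h
        · rw [hWinj h]
        · exact absurd h.symm (hne' _ _)
        · exact absurd h (hne' _ _)
        · rw [hWinj h]
      · obtain ⟨p, h | h⟩ := hEm f.1 f.2
        · exact ⟨(false, p), Subtype.ext h.symm⟩
        · exact ⟨(true, p), Subtype.ext h.symm⟩
    rw [← Nat.card_congr (Equiv.ofBijective e he), Nat.card_prod, Nat.card_prod,
      Nat.card_eq_fintype_card, Fintype.card_bool]
  -- a large 2-group centralising `X`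
  obtain ⟨g, y, hgy, hgm, hcard⟩ := c.exists_g_max x hR
  set T := ((Subgroup.centralizer ({y} : Set (Mdl (2 ^ n)))).map j).map (MulAut.conj g⁻¹).toMonoidHom
    with hT
  have hTp : IsPGroup 2 T := (c.isPGroup _).map _
  have hTX : ∀ t ∈ T, Commute t X := by
    rintro _ ⟨_, ⟨m, hm, rfl⟩, rfl⟩
    have e := conjBy_commute g⁻¹ ((show Commute m y from Subgroup.mem_centralizer_singleton_iff.1 hm).map j)
    rw [← hgy] at e
    simpa [hX, mul_assoc] using e
  have hET : E ≤ T := by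
    rintro _ ⟨m, hm, rfl⟩
    have hmx : Commute m x := Subgroup.mem_centralizer_singleton_iff.1 hm
    obtain ⟨m', hm'⟩ := hgm m hmx
    refine ⟨j m', ⟨m', Subgroup.mem_centralizer_singleton_iff.2 (c.commute_iff.1 ?_).eq, rfl⟩, ?_⟩
    · rw [hm', ← hgy]; exact conjBy_commute g (hmx.map j)
    · show g⁻¹ * j m' * g⁻¹⁻¹ = j m
      rw [hm']; group
  have hTE : E ≠ T := fun h => by
    have e : Nat.card T = {m : Mdl (2 ^ n) | Commute m y}.ncard := by
      rw [hT, Subgroup.card_map_of_injective (MulAut.conj g⁻¹).injective,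
        Subgroup.card_map_of_injective c.inj, ← SetLike.coe_sort_coe, Nat.card_coe_set_eq]
      congr 1
      ext m
      exact Subgroup.mem_centralizer_singleton_iff
    rw [← h, hE8] at e
    omega
  obtain ⟨h, hhT, hhE, hhN⟩ := exists_normalizing hTp hET hTE
  have hhX : Commute h X := hTX h hhT
  have hhEm : ∀ e ∈ E, h * e * h⁻¹ ∈ E := fun e he => (Subgroup.mem_normalizer_iff.1 hhN e).1 he
  have hfix : ∀ (k w : G), Commute k w → k * w * k⁻¹ = w := fun k w hk => by
    rw [hk.eq, mul_inv_cancel_right]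
  have horb : ∀ k : G, (∀ e ∈ E, k * e * k⁻¹ ∈ E) → ∀ p, p ≠ (false, false) →
      ∃ q, q ≠ (false, false) ∧ k * W p * k⁻¹ = W q := fun k hk p hp =>
    hEz _ (hk _ (hWE p)) (hconjR k _ _ (hRW p hp))
  -- `h` moves a translation
  obtain ⟨p₁, hp₁, hmove⟩ : ∃ p, p ≠ (false, false) ∧ h * W p * h⁻¹ ≠ W p := by
    by_contra hall
    push Not at hall
    have hcW : ∀ p, Commute h (W p) := fun p => by
      by_cases hp : p = (false, false)
      · rw [hp, hW0]; exact Commute.one_right h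
      · exact mul_inv_eq_iff_eq_mul.1 (hall p hp)
    set P := T ⊓ Subgroup.centralizer (E : Set G) with hP
    have hPc : ∀ q ∈ P, ∀ e ∈ E, Commute q e := fun q hq e he =>
      ((Subgroup.mem_centralizer_iff.1 hq.2) e he).symm
    have hEP : E ≤ P := le_inf hET fun e he => Subgroup.mem_centralizer_iff.2 fun f hf => hEab f hf e he
    have hhP : h ∈ P := ⟨hhT, Subgroup.mem_centralizer_iff.2 fun e he => by
      obtain ⟨p, rfl | rfl⟩ := hEm e he
      · exact (hcW p).symm.eq
      · exact (hhX.mul_right (hcW p)).symm.eq⟩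
    obtain ⟨-, h8⟩ := c.bound hn3 hs P (hTp.to_le inf_le_left) X (W (true, false)) (W (true, true))
      (hRW _ (by decide)) (fun q hq => hPc q hq _ (hWE _)) hR (hEP hXE) (hRW _ (by decide))
      (hEP (hWE _)) (fun e => absurd (hWinj e) (by decide)) (hXW _).symm
      (fun q hq => by rw [hfix q X (hPc q hq X hXE)])
      (fun q hq _ => by rw [hfix q _ (hPc q hq _ (hWE _))])
      (le_trans (Set.ncard_le_ncard (t := {X}) (by
        rintro _ ⟨q, hq, rfl⟩
        exact hfix q X (hPc q hq X hXE)) (Set.toFinite _)) (by simp))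
    have heq : P ⊓ Subgroup.centralizer ({X} : Set G) ⊓ Subgroup.centralizer ({W (true, false)} : Set G) = P :=
      le_antisymm (inf_le_left.trans inf_le_left) fun q hq =>
        ⟨⟨hq, Subgroup.mem_centralizer_singleton_iff.2 (hPc q hq X hXE).eq⟩,
          Subgroup.mem_centralizer_singleton_iff.2 (hPc q hq _ (hWE _)).eq⟩
    rw [heq] at h8
    exact hhE (Subgroup.eq_of_le_of_card_ge hEP (hE8.symm ▸ h8) ▸ hhP)
  obtain ⟨p₂, hp₂, he₂⟩ := horb h hhEm p₁ hp₁
  have hp12 : p₂ ≠ p₁ := fun e => hmove (e ▸ he₂)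
  set p₀ : Bool × Bool := (xor p₁.1 p₂.1, xor p₁.2 p₂.2) with hp₀
  have hdec : p₀ ≠ (false, false) ∧ p₀ ≠ p₁ ∧ p₀ ≠ p₂ ∧
      ∀ q : Bool × Bool, q ≠ (false, false) → q = p₀ ∨ q = p₁ ∨ q = p₂ := by
    have key : ∀ u v : Bool × Bool, u ≠ (false, false) → v ≠ (false, false) → v ≠ u →
        ((xor u.1 v.1, xor u.2 v.2) : Bool × Bool) ≠ (false, false) ∧
        ((xor u.1 v.1, xor u.2 v.2) : Bool × Bool) ≠ u ∧ ((xor u.1 v.1, xor u.2 v.2) : Bool × Bool) ≠ v ∧
        ∀ q : Bool × Bool, q ≠ (false, false) → q = (xor u.1 v.1, xor u.2 v.2) ∨ q = u ∨ q = v := by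
      decide
    exact key p₁ p₂ hp₁ hp₂ hp12
  obtain ⟨hd0, hd1, hd2, hdall⟩ := hdec
  have hW01 : W p₀ = W p₁ * W p₂ := (hWm p₁ p₂).symm
  obtain ⟨p₃, hp₃, he₃⟩ := horb h hhEm p₂ hp₂
  have hp32 : p₃ ≠ p₂ := fun e => hp12 (hWinj (by
    have h' : h * W p₂ * h⁻¹ = h * W p₁ * h⁻¹ := by rw [he₃, he₂, e]
    rwa [mul_left_inj, mul_right_inj] at h'))
  have hswap : h * W p₂ * h⁻¹ = W p₁ := by
    rcases hdall p₃ hp₃ with e | e | e
    · exfalso
      have e0 : h * W p₀ * h⁻¹ = W p₁ := by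
        have hh : h * W p₀ * h⁻¹ = W p₂ * (W p₁ * W p₂) := by
          calc h * W p₀ * h⁻¹ = (h * W p₁ * h⁻¹) * (h * W p₂ * h⁻¹) := by rw [hW01]; group
            _ = _ := by rw [he₂, he₃, e, hW01]
        rw [hh, ← mul_assoc, (hWW p₂ p₁).eq, mul_assoc, hWm p₂ p₂]
        simp [hW0]
      have h3 : Commute (h ^ 3) (W p₁) := by
        refine mul_inv_eq_iff_eq_mul.1 ?_
        calc h ^ 3 * W p₁ * (h ^ 3)⁻¹ = h * (h * (h * W p₁ * h⁻¹) * h⁻¹) * h⁻¹ := by
              simp [pow_succ, mul_assoc]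
          _ = W p₁ := by rw [he₂, he₃, e, e0]
      obtain ⟨k, hk⟩ := hTp ⟨h, hhT⟩
      have hk' : h ^ 2 ^ k = 1 := congrArg Subtype.val hk
      obtain ⟨m, hm⟩ := exists_pow_eq_self_of_coprime (x := h) (n := 3)
        (Nat.Coprime.of_dvd_right (orderOf_dvd_of_pow_eq_one hk') (Nat.Coprime.pow_right k (by norm_num)))
      exact hmove (hfix h _ (hm ▸ h3.pow_left m))
    · rw [he₃, e]
    · exact absurd e hp32
  have hh0 : h * W p₀ * h⁻¹ = W p₀ := by
    calc h * W p₀ * h⁻¹ = (h * W p₁ * h⁻¹) * (h * W p₂ * h⁻¹) := by rw [hW01]; group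
      _ = W p₀ := by rw [he₂, hswap, (hWW p₂ p₁).eq, hW01]
  -- the group fixing `W p₀`
  set K := Subgroup.normalizer (E : Set G) ⊓ Subgroup.centralizer ({W p₀} : Set G) with hK
  have hKE : ∀ k ∈ K, ∀ e ∈ E, k * e * k⁻¹ ∈ E := fun k hk e he =>
    (Subgroup.mem_normalizer_iff.1 hk.1 e).1 he
  have hKw : ∀ k ∈ K, Commute k (W p₀) := fun k hk => Subgroup.mem_centralizer_singleton_iff.1 hk.2
  have hEK : E ≤ K := le_inf Subgroup.le_normalizer fun e he =>
    Subgroup.mem_centralizer_singleton_iff.2 (hEab e he _ (hWE p₀)).eq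
  have hhK : h ∈ K := ⟨hhN, Subgroup.mem_centralizer_singleton_iff.2 (mul_inv_eq_iff_eq_mul.1 hh0)⟩
  have hKX : ∀ k ∈ K, ∃ p, k * X * k⁻¹ = X * W p := fun k hk =>
    hEs _ (hKE k hk X hXE) (hconjR k _ _ hR)
  have horbX : ((fun k => k * X * k⁻¹) '' (K : Set G)) = Set.range fun p => X * W p := by
    refine Set.Subset.antisymm ?_ ?_
    · rintro _ ⟨k, hk, rfl⟩
      obtain ⟨p, hp⟩ := hKX k hk
      exact ⟨p, hp.symm⟩
    · rintro _ ⟨p, rfl⟩
      set τ : Mdl (2 ^ n) := tr (if p.1 then quarter n else 0) (if p.2 then quarter n else 0) with hτ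
      have hτw : ∀ q, Commute τ (wOf n q) := fun q => by
        show _ = _
        simp [hτ, wOf, Mdl.mul_def, add_comm]
      have hτx : τ * x * τ⁻¹ = x * wOf n p := by
        have e := two_quarter c.hn
        rw [hτ, hx, Mdl.conj_tr_iota]
        obtain ⟨p1, p2⟩ := p
        cases p1 <;> cases p2 <;> simp [wOf, Mdl.mul_def, e, neg_half hn1]
      have hcX : j τ * X * (j τ)⁻¹ = X * W p := by
        show j τ * j x * (j τ)⁻¹ = j x * j (wOf n p)
        rw [← map_inv, ← map_mul, ← map_mul, ← map_mul, hτx]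
      have hcW : ∀ q, Commute (j τ) (W q) := fun q => (hτw q).map j
      refine ⟨j τ, ⟨mem_normalizer_of_map_le fun e he => ?_,
        Subgroup.mem_centralizer_singleton_iff.2 (hcW p₀).eq⟩, hcX⟩
      obtain ⟨q, rfl | rfl⟩ := hEm e he
      · rw [hfix _ _ (hcW q)]; exact hWE q
      · rw [show j τ * (X * W q) * (j τ)⁻¹ = (j τ * X * (j τ)⁻¹) * (j τ * W q * (j τ)⁻¹) by group, hcX,
          hfix _ _ (hcW q)]
        exact mul_mem (mul_mem hXE (hWE p)) (hWE q)
  have horbW : ((fun k => k * W p₁ * k⁻¹) ''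
      ((K ⊓ Subgroup.centralizer ({X} : Set G) : Subgroup G) : Set G)) = {W p₁, W p₂} := by
    refine Set.Subset.antisymm ?_ ?_
    · rintro _ ⟨k, hk, rfl⟩
      obtain ⟨q, hq, hqe⟩ := horb k (hKE k hk.1) p₁ hp₁
      rcases hdall q hq with e | e | e
      · exfalso
        refine hd1 (hWinj ?_).symm
        have h' : k * W p₁ * k⁻¹ = k * W p₀ * k⁻¹ := by rw [hqe, e, hfix k _ (hKw k hk.1)]
        rwa [mul_left_inj, mul_right_inj] at h'
      · exact Or.inl (hqe.trans (by rw [e]))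
      · exact Or.inr (hqe.trans (by rw [e]))
    · rintro _ (rfl | rfl)
      · exact ⟨1, one_mem _, by simp⟩
      · exact ⟨h, ⟨hhK, Subgroup.mem_centralizer_singleton_iff.2 hhX.eq⟩, he₂⟩
  set C₀ := K ⊓ Subgroup.centralizer ({X} : Set G) ⊓ Subgroup.centralizer ({W p₁} : Set G) with hC₀
  have hEC : E ≤ C₀ := le_inf (le_inf hEK fun e he =>
      Subgroup.mem_centralizer_singleton_iff.2 (hEab e he X hXE).eq)
    fun e he => Subgroup.mem_centralizer_singleton_iff.2 (hEab e he _ (hWE p₁)).eq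
  have hK64 : 2 ^ 6 ∣ Nat.card K := by
    rw [card_eq_orbit_mul K X, horbX, hfour, card_eq_orbit_mul (K ⊓ Subgroup.centralizer ({X} : Set G)) (W p₁),
      horbW, Set.ncard_pair (fun e => hp12 (hWinj e).symm)]
    obtain ⟨o, ho⟩ := hE8 ▸ Subgroup.card_dvd_of_le hEC
    exact ⟨o, by rw [← hC₀, ho]; ring⟩
  obtain ⟨Q₀, hQ₀⟩ := ((hTp.to_le hET).of_equiv (Subgroup.subgroupOfEquivOfLe hEK).symm :
    IsPGroup 2 (E.subgroupOf K)).exists_le_sylow
  set Q := (Q₀ : Subgroup K).map K.subtype with hQ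
  have hQK : Q ≤ K := Subgroup.map_subtype_le _
  have hEQ : E ≤ Q := fun e he => ⟨⟨e, hEK he⟩, hQ₀ he, rfl⟩
  have hQ64 : 64 ≤ Nat.card Q := by
    rw [hQ, Subgroup.card_map_of_injective K.subtype_injective]
    exact Nat.le_of_dvd Nat.card_pos (Q₀.pow_dvd_card_of_pow_dvd_card hK64)
  obtain ⟨h32, -⟩ := c.bound hn3 hs Q (Q₀.2.map K.subtype) X (W p₁) (W p₀) (hRW _ hd0)
    (fun q hq => hKw q (hQK hq)) hR (hEQ hXE) (hRW _ hp₁) (hEQ (hWE p₁))
    (fun e => hd1 (hWinj e).symm) (hXW p₁).symm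
    (fun q hq => hEab _ (hKE q (hQK hq) X hXE) X hXE)
    (fun q hq _ => hEab _ (hKE q (hQK hq) _ (hWE p₁)) _ (hWE p₁))
    (le_trans (Set.ncard_le_ncard (Set.image_mono (show (Q : Set G) ⊆ K from hQK)) (Set.toFinite _))
      (by rw [horbX, hfour]))
  omega

/-- The final dichotomy. -/
theorem all_or_two (c : Cfg S j) :
    R j sg (zc n) ∨ n = 2 := by
  by_contra h
  push Not at h
  obtain ⟨hs, hn2⟩ := h
  have hn3 : 3 ≤ n := by have := c.hn; omega
  obtain ⟨a, b, hio⟩ := c.exists_io hs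
  by_cases hab : par (show 1 ≤ n by omega) a = par (show 1 ≤ n by omega) b
  · exact c.not_even hn3 hs hab hio
  · exact c.not_odd hn3 hs hab hio

end Cfg

end Cfsg.Agent.H33.G2Two
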