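import Cfsg.Agent.H33.G2Two.Fusion

/-!
At most two classes of involutions, by transfer.
-/

set_option autoImplicit false

namespace Cfsg.Agent.H33.G2Two.Cfg

open Mdl

variable {G : Type*} [Group G] [Finite G] {n : ℕ} {S : Sylow 2 G} {j : Mdl (2 ^ n) →* G}

/-- An index two subgroup of the model, as the kernel of a parity. -/
def parKer (φ : Mdl (2 ^ n) → Bool) (hmul : ∀ x y, φ (x * y) = xor (φ x) (φ y)) :
    Subgroup (Mdl (2 ^ n)) where
  carrier := {x | φ x = false}
  mul_mem' := fun {x y} (hx : φ x = false) (hy : φ y = false) => by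
    show φ (x * y) = false
    simp [hmul, hx, hy]
  one_mem' := by
    show φ 1 = false
    have := hmul 1 1
    rw [mul_one] at this
    revert this
    cases φ 1 <;> simp
  inv_mem' := fun {x} (hx : φ x = false) => by
    show φ x⁻¹ = false
    have h := hmul x x⁻¹
    rw [mul_inv_cancel, hx] at h
    have h1 : φ 1 = false := by
      have := hmul 1 1
      rw [mul_one] at this
      revert this
      cases φ 1 <;> simp
    rw [h1] at h
    simpa using h.symm

variable [IsSimpleGroup G]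

theorem fused (c : Cfg S j) (φ : Mdl (2 ^ n) → Bool) (hmul : ∀ x y, φ (x * y) = xor (φ x) (φ y))
    {u : Mdl (2 ^ n)} (hu : u * u = 1) (hφu : φ u = true) (hnc : ∃ m, ¬ Commute m u) :
    ∃ v, R j u v ∧ φ v = false ∧ v * v = 1 ∧ v ≠ 1 := by
  set Q := parKer φ hmul
  have hQ : Q.index = 2 := by
    rw [Subgroup.index_eq_two_iff]
    refine ⟨u, fun b => ?_⟩
    show Xor' (φ (b * u) = false) (φ b = false)
    rw [hmul, hφu]
    cases φ b <;> simp [Xor']
  have hrel : (Q.map j).relIndex (S : Subgroup G) = 2 := by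
    rw [← c.range_eq, MonoidHom.range_eq_map, Subgroup.relIndex_map_map_of_injective _ _ c.inj,
      Subgroup.relIndex_top_right, hQ]
  have hu1 : u ≠ 1 := fun h => by
    obtain ⟨m, hm⟩ := hnc
    exact hm (h ▸ Commute.one_right m)
  have huo : orderOf (j u) = 2 := Cfsg.Agent.S3279.two_of_sq_one
    (by rw [← map_mul, hu, map_one]) (fun h => hu1 (c.inj (h.trans (map_one j).symm)))
  have hQS : Q.map j ≤ (S : Subgroup G) := by
    rintro _ ⟨m, -, rfl⟩; exact c.mem m
  obtain ⟨g, hg⟩ := Cfsg.Agent.S3279.fused S (Q.map j) hQS hrel huo (c.mem u)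
    (fun ⟨m, hm, hmu⟩ => by
      rw [c.inj hmu] at hm
      exact Bool.noConfusion ((show φ u = false from hm).symm.trans hφu))
    (hnc.imp' j fun m hm h => hm (c.commute_iff.1 h))
  obtain ⟨v, hv, hvg⟩ := hg
  have hR : R j u v := isConj_iff.2 ⟨g, hvg.symm⟩
  exact ⟨v, hR, hv, c.inv_of_R hR.symm hu hu1⟩

/-- The translations of order two and the exchanged one are conjugate to the centre. -/
theorem R_tr (c : Cfg S j) {v : Mdl (2 ^ n)} (h : v = zc n ∨ v = t0 n ∨ v = t1 n) :
    R j v (zc n) := by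
  rcases h with rfl | rfl | rfl
  · exact R.refl _
  · exact c.R_t0
  · exact ((R.of_isConj (isConj_iff.2 ⟨sg, conj_sg_t0⟩)).symm).trans c.R_t0

theorem sgi_cases (c : Cfg S j) : R j sgi (zc n) ∨ R j sgi sg := by
  have hn := c.hn
  obtain ⟨v, hv, hφ, h1, h2⟩ := c.fused (fun x => x.l) (fun x y => rfl) (u := sgi) c.sg_inv.2.2.1 rfl
    ⟨t0 n, fun h => by
      have := congrArg Mdl.a h.eq
      simp [Mdl.mul_def] at this
      exact half_ne_zero (n := n) (by omega) this⟩
  rcases involution_cases (by omega) h1 h2 with h | h | h | ⟨_, _, h⟩ | ⟨a, h⟩ | ⟨_, h⟩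
  · exact Or.inl (hv.trans (c.R_tr (Or.inl h)))
  · exact Or.inl (hv.trans (c.R_tr (Or.inr (Or.inl h))))
  · exact Or.inl (hv.trans (c.R_tr (Or.inr (Or.inr h))))
  · rw [h] at hφ; exact Bool.noConfusion hφ
  · exact Or.inr ((h ▸ hv).trans (R.of_isConj (Mdl.isConj_sg a)).symm)
  · rw [h] at hφ; exact Bool.noConfusion hφ

theorem io_cases (c : Cfg S j) (a b : ZMod (2 ^ n)) :
    R j (io a b) (zc n) ∨ R j (io a b) sg := by
  have hn := c.hn
  obtain ⟨v, hv, hφ, h1, h2⟩ := c.fused (fun x => x.l) (fun x y => rfl) (u := io a b)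
    (by simp [Mdl.mul_def, Mdl.one_def]) rfl
    ⟨tr (quarter n) 0, fun h => by
      have := congrArg Mdl.a h.eq
      simp [Mdl.mul_def] at this
      apply half_ne_zero (n := n) (by omega)
      rw [← two_quarter hn]
      linear_combination this⟩
  rcases involution_cases (by omega) h1 h2 with h | h | h | ⟨_, _, h⟩ | ⟨a', h⟩ | ⟨_, h⟩
  · exact Or.inl (hv.trans (c.R_tr (Or.inl h)))
  · exact Or.inl (hv.trans (c.R_tr (Or.inr (Or.inl h))))
  · exact Or.inl (hv.trans (c.R_tr (Or.inr (Or.inr h))))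
  · rw [h] at hφ; exact Bool.noConfusion hφ
  · exact Or.inr ((h ▸ hv).trans (R.of_isConj (Mdl.isConj_sg a')).symm)
  · rw [h] at hφ; exact Bool.noConfusion hφ

/-- At most two classes. -/
theorem two_classes (c : Cfg S j) {x : Mdl (2 ^ n)} (hx : x * x = 1) (hx1 : x ≠ 1) :
    R j x (zc n) ∨ R j x sg := by
  have hn := c.hn
  rcases involution_cases (by omega) hx hx1 with h | h | h | ⟨a, b, rfl⟩ | ⟨a, rfl⟩ | ⟨a, rfl⟩
  · exact Or.inl (c.R_tr (Or.inl h))
  · exact Or.inl (c.R_tr (Or.inr (Or.inl h)))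
  · exact Or.inl (c.R_tr (Or.inr (Or.inr h)))
  · exact c.io_cases a b
  · exact Or.inr (R.of_isConj (Mdl.isConj_sg a)).symm
  · rcases c.sgi_cases with h | h
    · exact Or.inl ((R.of_isConj (Mdl.isConj_sgi a)).symm.trans h)
    · exact Or.inr ((R.of_isConj (Mdl.isConj_sgi a)).symm.trans h)

/-- If the exchange is not fused to the centre, it is fused to some inverting element. -/
theorem exists_io (c : Cfg S j) (hs : ¬ R j sg (zc n)) : ∃ a b, R j (io a b) sg := by
  have hn := c.hn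
  obtain ⟨v, hv, hφ, h1, h2⟩ := c.fused (fun x => x.k) (fun x y => rfl) (u := sg) c.sg_inv.1 rfl
    ⟨t0 n, fun h => half_ne_zero (n := n) (by omega) ((commute_sg_iff _).1 h).symm⟩
  rcases involution_cases (by omega) h1 h2 with h | h | h | ⟨a, b, h⟩ | ⟨_, h⟩ | ⟨_, h⟩
  · exact absurd (hv.trans (c.R_tr (Or.inl h))) hs
  · exact absurd (hv.trans (c.R_tr (Or.inr (Or.inl h)))) hs
  · exact absurd (hv.trans (c.R_tr (Or.inr (Or.inr h)))) hs
  · exact ⟨a, b, (h ▸ hv).symm⟩
  · rw [h] at hφ; exact Bool.noConfusion hφ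
  · rw [h] at hφ; exact Bool.noConfusion hφ

theorem sgi_of_sg (c : Cfg S j) (hs : ¬ R j sg (zc n)) : R j sgi sg ∧ ¬ R j sgi (zc n) := by
  have hn := c.hn
  obtain ⟨v, hv, hφ, h1, h2⟩ := c.fused (fun x => xor x.k x.l)
    (fun x y => by
      show xor (xor x.k y.k) (xor x.l y.l) = _
      cases x.k <;> cases x.l <;> cases y.k <;> cases y.l <;> rfl)
    (u := sg) c.sg_inv.1 rfl
    ⟨t0 n, fun h => half_ne_zero (n := n) (by omega) ((commute_sg_iff _).1 h).symm⟩
  have key : R j sgi sg := by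
    rcases involution_cases (by omega) h1 h2 with h | h | h | ⟨a, b, h⟩ | ⟨_, h⟩ | ⟨a, h⟩
    · exact absurd (hv.trans (c.R_tr (Or.inl h))) hs
    · exact absurd (hv.trans (c.R_tr (Or.inr (Or.inl h)))) hs
    · exact absurd (hv.trans (c.R_tr (Or.inr (Or.inr h)))) hs
    · rw [h] at hφ; exact Bool.noConfusion hφ
    · rw [h] at hφ; exact Bool.noConfusion hφ
    · exact (R.of_isConj (Mdl.isConj_sgi a)).trans (h ▸ hv).symm
  exact ⟨key, fun h => hs (key.symm.trans h)⟩

end Cfsg.Agent.H33.G2Two.Cfg
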